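import Cfsg.Agent.H892.EP.Defs
import Cfsg.Agent.Nodes.NormalForm
import Cfsg.Agent.Nodes.RGDLib

/-!
# `Inv2` for groups with a root group datum of odd characteristic (S4929)

If for every fundamental root some element of the (abelian) torus inverts the root group, the 2-part of the torus has
trivial centraliser in `U`.
-/

set_option autoImplicit false
set_option linter.unusedSectionVars false

namespace Cfsg.Agent.H334.EP

open CoxeterSystem Cfsg.Agent.ChevalleyStructure.CoxeterGeom Cfsg.Agent.Tits.Roots Cfsg.Agent.Tits.Core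
  Cfsg.Agent.Tits.Exchange Cfsg.Agent.Nodes.Reps
  Cfsg.Agent.Nodes.BNOf Cfsg.Agent.Nodes.StabComb
  Cfsg.Agent.Nodes.RGDLib Cfsg.Agent.Nodes.Bruhat Cfsg.Agent.Nodes.OppDec Cfsg.Agent.Nodes.LeviDec
  Cfsg.Agent.Nodes.NormalForm Cfsg.Agent.H892.EP

variable {I W Y : Type*} [Fintype I] [DecidableEq I] [Group W] [Group Y] {M : CoxeterMatrix I}
  {cs : CoxeterSystem M W} {A : I → I → ℤ} {h : IsCartan M A} {r : ℕ} {T : Subgroup Y} {n : I → Y}
  {X : (I → ℤ) → Subgroup Y}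

/-- the elements of 2-power order of an abelian group -/
def twoPart (T : Subgroup Y) (hT : ∀ a ∈ T, ∀ b ∈ T, a * b = b * a) : Subgroup Y where
  carrier := {s | s ∈ T ∧ ∃ k : ℕ, s ^ 2 ^ k = 1}
  one_mem' := ⟨one_mem _, 0, one_pow _⟩
  mul_mem' := by
    rintro a b ⟨ha, k, hk⟩ ⟨hb, l, hl⟩
    refine ⟨mul_mem ha hb, k + l, ?_⟩
    have hc : Commute a b := hT a ha b hb
    rw [hc.mul_pow, pow_add, pow_mul, hk, one_pow, one_mul, mul_comm (2 ^ k), pow_mul, hl, one_pow]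
  inv_mem' := by
    rintro a ⟨ha, k, hk⟩
    exact ⟨inv_mem ha, k, by rw [inv_pow, hk, inv_one]⟩

theorem isPGroup_twoPart (T : Subgroup Y) (hT : ∀ a ∈ T, ∀ b ∈ T, a * b = b * a) : IsPGroup 2 (twoPart T hT) := by
  rintro ⟨s, hs, k, hk⟩
  exact ⟨k, Subtype.ext hk⟩

/-- an odd power of an element inverting `a` inverts `a` -/
theorem conj_odd_pow {t : Y} {S : Subgroup Y} (ht : ∀ a ∈ S, t * a * t⁻¹ = a⁻¹) {m : ℕ} (hm : Odd m) {a : Y} (ha : a ∈ S) :
    t ^ m * a * (t ^ m)⁻¹ = a⁻¹ := by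
  obtain ⟨j, rfl⟩ := hm
  have h2 : ∀ j : ℕ, t ^ (2 * j) * a * (t ^ (2 * j))⁻¹ = a := by
    intro j
    induction j with
    | zero => simp
    | succ j ih =>
      have e : t ^ (2 * (j + 1)) = t * t * t ^ (2 * j) := by
        rw [mul_add, mul_one, pow_add, pow_two, ← mul_assoc]
        have : Commute (t ^ (2 * j)) t := Commute.pow_self t _
        calc t ^ (2 * j) * t * t = t * t ^ (2 * j) * t := by rw [this.eq]
          _ = t * (t ^ (2 * j) * t) := by rw [mul_assoc]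
          _ = t * (t * t ^ (2 * j)) := by rw [this.eq]
          _ = t * t * t ^ (2 * j) := by rw [mul_assoc]
      calc t ^ (2 * (j + 1)) * a * (t ^ (2 * (j + 1)))⁻¹
          = t * (t * (t ^ (2 * j) * a * (t ^ (2 * j))⁻¹) * t⁻¹) * t⁻¹ := by rw [e]; group
        _ = a := by rw [ih, ht a ha, ht _ (inv_mem ha), inv_inv]
  calc t ^ (2 * j + 1) * a * (t ^ (2 * j + 1))⁻¹ = t * (t ^ (2 * j) * a * (t ^ (2 * j))⁻¹) * t⁻¹ := by
        rw [pow_succ']; group
    _ = a⁻¹ := by rw [h2, ht a ha]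

/-- **`Inv2` from a root group datum.** -/
theorem inv2_of_rgd [Finite W] [Finite Y] [Fact r.Prime] (hr : r ≠ 2) (R : RGD cs h r T n X) (hG : G1 cs h X = ⊤)
    (hT : ∀ a ∈ T, ∀ b ∈ T, a * b = b * a)
    (hinv : ∀ i, ∃ t ∈ T, ∀ a ∈ X (sr i), t * a * t⁻¹ = a⁻¹) : Inv2 r Y := by
  have hGG : GG cs h T X = ⊤ := by
    have h1 : RGD.Sup X {x | IsRoot cs h x} = ⊤ := hG
    unfold GG
    rw [h1]
    exact sup_top_eq _
  refine ⟨⟨RGD.Sup X (RGD.Pos cs h), R.isPGroup_Upos, fun {Q} hQ hle => eq_U_of_isPGroup R hQ hle (by rw [hGG]; exact le_top)⟩,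
    twoPart T hT, isPGroup_twoPart T hT, ?_, ?_⟩
  · intro s hs
    exact R.T_le_normalizer_U hs.1
  · intro u hu hc
    have hu' : u ∈ RGD.Sup X (RGD.Pos cs h) := hu
    have h1 : u ∈ RGD.Sup X (RGD.Pos cs h) ⊓ Subgroup.centralizer (twoPart T hT : Set Y) :=
      Subgroup.mem_inf.2 ⟨hu', Subgroup.mem_centralizer_iff.2 fun s hs => hc s hs⟩
    rw [centralizer_U R (fun s hs => hs.1)] at h1
    have h2 : RGD.Sup (fun x => X x ⊓ Subgroup.centralizer (twoPart T hT : Set Y)) (RGD.Pos cs h) ≤ ⊥ := by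
      refine RGD.Sup_le fun x hx => ?_
      obtain ⟨w, i, rfl⟩ := hx.1
      rintro a ⟨ha, hac⟩
      rw [Subgroup.mem_bot]
      obtain ⟨k, hk⟩ := exists_rp cs R.nsys w
      obtain ⟨t, ht, hti⟩ := hinv i
      -- the 2-part of `t`
      have hn0 : orderOf t ≠ 0 := (orderOf_pos t).ne'
      obtain ⟨e, m, hm, hem⟩ := Nat.exists_eq_two_pow_mul_odd hn0
      have h2t : (t ^ m) ^ 2 ^ e = 1 := by
        rw [← pow_mul, mul_comm, ← hem, pow_orderOf_eq_one]
      have hb : k⁻¹ * a * k ∈ X (sr i) := by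
        have h3 := R.conj_mem' hk (isRoot_sr cs h i |>.act w) ha
        rwa [rep_inv_apply] at h3
      have hs : k * t ^ m * k⁻¹ ∈ twoPart T hT := by
        refine ⟨?_, e, ?_⟩
        · have h3 : k * t ^ m * k⁻¹ ∈ cj k T := conj_mem_cj.2 (pow_mem ht m)
          rwa [cj_T R hk] at h3
        · rw [conj_pow, h2t, mul_one, mul_inv_cancel]
      have hcomm := Subgroup.mem_centralizer_iff.1 hac _ hs
      have h4 := conj_odd_pow hti hm hb
      have h5 : t ^ m * (k⁻¹ * a * k) * (t ^ m)⁻¹ = k⁻¹ * a * k := by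
        calc t ^ m * (k⁻¹ * a * k) * (t ^ m)⁻¹ = k⁻¹ * ((k * t ^ m * k⁻¹) * a) * (k * t ^ m * k⁻¹)⁻¹ * k := by group
          _ = k⁻¹ * (a * (k * t ^ m * k⁻¹)) * (k * t ^ m * k⁻¹)⁻¹ * k := by rw [hcomm]
          _ = k⁻¹ * a * k := by group
      rw [h5] at h4
      have h6 : (k⁻¹ * a * k) * (k⁻¹ * a * k) = 1 := by
        nth_rewrite 1 [h4]
        exact inv_mul_cancel _
      have h7 : k⁻¹ * a * k = 1 := by
        obtain ⟨j, hj⟩ := R.pgrp i ⟨k⁻¹ * a * k, hb⟩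
        have hj' : (k⁻¹ * a * k) ^ r ^ j = 1 := congrArg Subtype.val hj
        have ho : Odd (r ^ j) := ((Fact.out : r.Prime).odd_of_ne_two hr).pow
        obtain ⟨l, hl⟩ := ho
        rw [hl, pow_add, pow_mul, pow_two, h6, one_pow, one_mul, pow_one] at hj'
        exact hj'
      calc a = k * (k⁻¹ * a * k) * k⁻¹ := by group
        _ = 1 := by rw [h7, mul_one, mul_inv_cancel]
    exact Subgroup.mem_bot.1 (h2 h1)

end Cfsg.Agent.H334.EP
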