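import Cfsg.Agent.H162.GaussExc
import Cfsg.Agent.Nodes.RGDTwNode
import Cfsg.Agent.Nodes.RGDTwCoord
import Cfsg.Agent.ChevalleyStructure.HMatDiagAll

/-!
# Torus elements inverting the fundamental root groups (S4929)
-/

set_option autoImplicit false
set_option linter.unusedSectionVars false

namespace Cfsg.Agent.H334.EP

open CoxeterSystem Cfsg.Agent.ChevalleyStructure.CoxeterGeom Cfsg.Agent.Tits.Roots Cfsg.Agent.Tits.Core
  Cfsg.Agent.Nodes.BNOf Cfsg.Agent.Nodes.RGDTwGen Cfsg.Agent.Nodes.RGDChev Cfsg.Agent.Nodes.RGDFold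
  Cfsg.Agent.Nodes.RGDFoldSL Cfsg.Agent.Nodes.RGDTwCoord
open Cfsg.Lie Cfsg.Agent.ChevalleyStructure Cfsg.Agent.ChevalleyStructure.Elts
  Cfsg.Agent.ChevalleyStructure.SL2Hom

universe u

/-- the torus of `GL` is abelian -/
theorem diag_comm {D : ChevalleyDatum} {l : ℕ} {M : CoxeterMatrix (Fin l)} (hp : IsType D l M) {K : Type u} [Field K]
    {s t : GL D.Idx K} (hs : s ∈ D.diagonalSubgroup K) (ht : t ∈ D.diagonalSubgroup K) : s * t = t * s := by
  obtain ⟨χ, h1⟩ := HMatDiagAll.diagonalSubgroup_le_torus (D := D) hp.inList hs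
  obtain ⟨ψ, h2⟩ := HMatDiagAll.diagonalSubgroup_le_torus (D := D) hp.inList ht
  apply Units.ext
  rw [Units.val_mul, Units.val_mul, h1, h2, Matrix.diagonal_mul_diagonal, Matrix.diagonal_mul_diagonal]
  congr 1
  funext i
  exact mul_comm _ _

section chev

open Cfsg.Agent.H162.GaussExc Cfsg.Agent.OddHalf.NI.ModelChev Cfsg.Agent.KFacts.RgdChevCoord Cfsg.Agent.Nodes.ChevCls

variable {D : ChevalleyDatum} {l : ℕ} {M : CoxeterMatrix (Fin l)} (hp : IsType D l M) {K : Type u} [Field K]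

include hp in
/-- **Chevalley groups.** -/
theorem inv_chev (htab : ∀ i : Fin l, ∃ j : Fin l, Odd (D.cartan j (D.simple i))) (i : Fin l) :
    ∃ t ∈ (D.diagonalSubgroup K).subgroupOf (D.group K), ∀ a ∈ (XV D l K (sr i)).subgroupOf (D.group K),
      t * a * t⁻¹ = a⁻¹ := by
  obtain ⟨j, hj⟩ := htab i
  have hr : D.simple i < D.nroots := NPerm.simple_lt hp.inList (lt_rank hp i)
  refine ⟨sg hp (Pi.single j 1) (-1 : Kˣ), sg_mem hp _ _, fun a ha => ?_⟩
  rw [← vec_simple hp i] at ha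
  obtain ⟨c, rfl⟩ := (mem_XX hp hr a).1 ha
  rw [act_sg hp _ _ hr, xc_neg hp hr]
  congr 1
  have h1 : ∑ k : Fin l, (Pi.single j (1 : ℤ) : Fin l → ℤ) k * D.cartan k (D.simple i) = D.cartan j (D.simple i) := by
    rw [Finset.sum_eq_single j]
    · rw [Pi.single_eq_same, one_mul]
    · intro k _ hk
      rw [Pi.single_eq_of_ne hk, zero_mul]
    · intro h
      exact absurd (Finset.mem_univ j) h
  rw [h1, hj.neg_one_zpow, Units.val_neg, Units.val_one, neg_one_mul]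

end chev

section fold

variable {D : ChevalleyDatum} {l m : ℕ} {M' : CoxeterMatrix (Fin l)} {hp : IsType D l M'} {K : Type u} [Field K]
  {J : Fin m → List (Fin l)} {L : List (List ℕ)}
  {σ : GL D.Idx K →* GL D.Idx K} {ρ ρ' : ℕ → ℕ} {f : ℕ → K → K} {G : Subgroup (GL D.Idx K)} {φ : K →+* K}

theorem wt_neg_one (o : List (Fin l)) (s : ℕ) : wt D φ o s (-1) = (-1 : K) ^ (o.map fun k : Fin l => D.cartan k s).sum := by
  induction o with
  | nil => rw [List.map_nil, List.sum_nil, zpow_zero]; rfl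
  | cons j o ih =>
    show (-1 : K) ^ D.cartan j s * wt D φ o s (φ (-1)) = _
    rw [map_neg, map_one, ih, List.map_cons, List.sum_cons, zpow_add₀ (neg_ne_zero.2 one_ne_zero)]

theorem conj_yv {o' : List (Fin l)} : ∀ (o : List ℕ), (∀ s ∈ o, s < D.nroots ∧ wt D φ o' s (-1) = -1) → ∀ u : K,
    hI hp φ o' (-1) * yv (xG hp.inList) φ o u * (hI hp φ o' (-1))⁻¹ = yv (xG hp.inList) φ o (-u) := by
  intro o
  induction o with
  | nil =>
    intro _ u
    show hI hp φ o' (-1) * 1 * _ = 1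
    rw [mul_one, mul_inv_cancel]
  | cons s o ih =>
    intro h u
    show hI hp φ o' (-1) * (xG hp.inList s u * yv (xG hp.inList) φ o (φ u)) * _ =
      xG hp.inList s (-u) * yv (xG hp.inList) φ o (φ (-u))
    obtain ⟨h1, h2⟩ := h s List.mem_cons_self
    have h3 := hI_conj (hp := hp) (φ := φ) o' h1 (neg_ne_zero.2 one_ne_zero) u
    have h4 := ih (fun s' hs' => h s' (List.mem_cons_of_mem _ hs')) (φ u)
    rw [h2, neg_one_mul] at h3
    rw [map_neg, ← h3, ← h4]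
    group

/-- **Twisted groups.** -/
theorem inv_fold (FG : FoldGrp hp K J L σ ρ ρ' f G) {rp : Fin m → ℕ} {rest : Fin m → List ℕ}
    (N : ∀ i, NodeOK D J L ρ i (rp i) (rest i)) (hf : ∀ i, ∀ s ∈ rp i :: rest i, ∀ t, f s t = φ t)
    (htab : ∀ i, ∃ j, ∀ s ∈ rp i :: rest i, Odd ((J j).map fun k : Fin l => D.cartan k s).sum) (i : Fin m) :
    ∃ t ∈ (D.diagonalSubgroup K ⊓ G).subgroupOf G, ∀ a ∈ (R D hp K J σ (sr i)).subgroupOf G, t * a * t⁻¹ = a⁻¹ := by
  obtain ⟨j, hj⟩ := htab i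
  have h0 : (-1 : Fx φ ((rest j).length + 1)) ≠ 0 := neg_ne_zero.2 one_ne_zero
  refine ⟨Phi FG (N j) (hf j) (hS (-1)), Phi_hS FG (N j) (hf j) h0, fun a ha => ?_⟩
  obtain ⟨u, rfl⟩ := (mem_X_iff FG (N i) (hf i) a).1 ha
  have hz : ((Phi FG (N j) (hf j) (hS (-1)) : ↥G) : GL D.Idx K) = hI hp φ (J j) (-1) := by
    show Ph hp K (N j) φ (Matrix.SpecialLinearGroup.map _ (hS _)) = _
    rw [map_hS, map_neg, map_one]
    exact hv_eq_hI (N j).Jn (N j).lt _
  have hup : (Phi FG (N i) (hf i) (up u))⁻¹ = Phi FG (N i) (hf i) (up (-u)) := by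
    rw [← map_inv]
    congr 1
    rw [inv_eq_iff_mul_eq_one]
    apply Matrix.SpecialLinearGroup.ext
    intro a b
    rw [Matrix.SpecialLinearGroup.coe_mul, Matrix.mul_apply, Fin.sum_univ_two, Matrix.SpecialLinearGroup.coe_one]
    fin_cases a <;> fin_cases b <;> simp [up]
  rw [hup]
  apply Subtype.ext
  rw [Subgroup.coe_mul, Subgroup.coe_mul, Subgroup.coe_inv, hz, coe_Phi_up, coe_Phi_up]
  have h1 := conj_yv (hp := hp) (φ := φ) (o' := J j) (rp i :: rest i) (fun s hs => ⟨(N i).lt s hs, by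
    rw [wt_neg_one, (hj s hs).neg_one_zpow]⟩) (u : K)
  exact h1

end fold

end Cfsg.Agent.H334.EP
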